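import Cfsg.Agent.H251.PQ.KillTor

/-!
# Principal blocks of `³D₄(q)`: pairs of primes of the same order (helper251, S4612)

* `tor_D4` : `Kill ³D₄(q) q e e`, `e = 2, 3, 6, 12`.
-/

set_option autoImplicit false
set_option linter.unusedSectionVars false

namespace Cfsg.Agent.H251.PQ

open CoxeterSystem Cfsg Cfsg.Lie Cfsg.Lie.ChevalleyDatum
open Cfsg.Agent.H129 Cfsg.Agent.H317.PQ Cfsg.Agent.Nodes

universe u

/-- `-1` -/
def cD4m : List (Fin 4 × WData.Mat 4) :=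
  [(3, ![![-1, 0, 0, 0], ![0, -1, 0, 0], ![0, 0, -1, 0], ![0, 0, 0, -1]]),
   (1, ![![-1, 0, 0, 0], ![0, -1, 0, -1], ![0, 0, -1, 0], ![0, 0, 0, 1]]),
   (2, ![![-1, -1, 0, 0], ![0, 0, 0, -1], ![0, -1, -1, 0], ![0, 1, 0, 1]]),
   (0, ![![-1, -1, -1, 0], ![0, 0, 0, -1], ![0, -1, 0, 0], ![0, 1, 1, 1]]),
   (1, ![![0, -1, -1, 0], ![0, 0, 0, -1], ![-1, -1, 0, 0], ![1, 1, 1, 1]]),
   (3, ![![0, 0, -1, 0], ![0, -1, 0, -1], ![-1, 0, 0, 0], ![1, 2, 1, 1]]),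
   (0, ![![0, 0, -1, 0], ![0, -1, 0, 0], ![-1, 0, 0, 0], ![1, 2, 1, 1]]),
   (1, ![![0, 0, -1, 0], ![-1, -1, 0, 0], ![1, 0, 0, 0], ![1, 2, 1, 1]]),
   (2, ![![0, -1, -1, 0], ![-1, 0, 0, 0], ![1, 1, 0, 0], ![1, 1, 1, 1]]),
   (0, ![![0, -1, 0, 0], ![-1, 0, 0, 0], ![1, 1, 1, 0], ![1, 1, 0, 1]]),
   (1, ![![-1, -1, 0, 0], ![1, 0, 0, 0], ![0, 1, 1, 0], ![0, 1, 0, 1]]),
   (0, ![![-1, 0, 0, 0], ![1, 1, 0, 0], ![0, 0, 1, 0], ![0, 0, 0, 1]])]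

/-- `θ² + θ + 1 = 0` -/
def cD4t : List (Fin 4 × WData.Mat 4) :=
  [(2, ![![-1, -1, 0, -1], ![0, -1, -1, 0], ![0, 1, 1, 1], ![0, 1, 0, 0]]),
   (0, ![![-1, -1, -1, -1], ![0, -1, 0, 0], ![0, 1, 0, 1], ![0, 1, 1, 0]]),
   (1, ![![0, -1, -1, -1], ![-1, -1, 0, 0], ![1, 1, 0, 1], ![1, 1, 1, 0]]),
   (3, ![![0, -1, -1, -1], ![-1, 0, 0, 0], ![1, 1, 0, 1], ![1, 1, 1, 0]]),
   (2, ![![0, -1, -1, 0], ![-1, 0, 0, 0], ![1, 1, 0, 0], ![1, 1, 1, 1]]),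
   (0, ![![0, -1, 0, 0], ![-1, 0, 0, 0], ![1, 1, 1, 0], ![1, 1, 0, 1]]),
   (1, ![![-1, -1, 0, 0], ![1, 0, 0, 0], ![0, 1, 1, 0], ![0, 1, 0, 1]]),
   (0, ![![-1, 0, 0, 0], ![1, 1, 0, 0], ![0, 0, 1, 0], ![0, 0, 0, 1]])]

/-- `θ² - θ + 1 = 0` -/
def cD4s : List (Fin 4 × WData.Mat 4) :=
  [(2, ![![0, -1, -1, 0], ![-1, 0, 0, 0], ![1, 1, 0, 0], ![1, 1, 1, 1]]),
   (0, ![![0, -1, 0, 0], ![-1, 0, 0, 0], ![1, 1, 1, 0], ![1, 1, 0, 1]]),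
   (1, ![![-1, -1, 0, 0], ![1, 0, 0, 0], ![0, 1, 1, 0], ![0, 1, 0, 1]]),
   (0, ![![-1, 0, 0, 0], ![1, 1, 0, 0], ![0, 0, 1, 0], ![0, 0, 0, 1]])]

theorem cD4m_ok : WData.ChainOK DataD4C.Am cD4m := by decide +kernel
theorem cD4t_ok : WData.ChainOK DataD4C.Am cD4t := by decide +kernel
theorem cD4s_ok : WData.ChainOK DataD4C.Am cD4s := by decide +kernel

/-- the functionals for the torus `(q³+1)(q+1)` -/
def uD4m (q : ℤ) : Fin 4 → Fin 4 → ℤ := ![![1, 0, -q, q ^ 2], ![0, 1, 0, 0], ![0, 0, 1, 0], ![0, 0, 0, 1]]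

def vD4m (q : ℤ) : Fin 4 → Fin 4 → ℤ := ![![1, 0, 0, 0], ![0, 1, 0, 0], ![q, 0, 1, 0], ![-q ^ 2, 0, 0, 1]]

theorem uvD4m (q : ℤ) : ∀ i j, ∑ m, uD4m q i m * vD4m q j m = if i = j then 1 else 0 := by
  intro i j
  fin_cases i <;> fin_cases j <;> simp [uD4m, vD4m, Fin.sum_univ_succ]

theorem dvD4m (q : ℕ) : ∀ i m, ((![q ^ 3 + 1, q + 1, 1, 1] : Fin 4 → ℕ) i : ℤ) ∣ ∑ j, uD4m q i j *
      (WData.hd cD4m ((![2, 1, 3, 0] : Fin 4 → Fin 4) m) j - (q : ℤ) * (if m = j then 1 else 0)) := by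
  intro i m
  fin_cases i <;> fin_cases m <;> simp [WData.hd, cD4m, uD4m, Fin.sum_univ_succ] <;>
    first | done | (refine ⟨0, ?_⟩; ring1) | (refine ⟨-1, ?_⟩; ring1) | (refine ⟨1, ?_⟩; ring1)

/-- the functionals for the torus `(q²+q+1)²` -/
def uD4t (q : ℤ) : Fin 4 → Fin 4 → ℤ := ![![-1 - q, 0, 0, 1], ![-q, q, 1, 0], ![-1, 0, 0, 0], ![-1, 1, 0, 0]]

def vD4t (q : ℤ) : Fin 4 → Fin 4 → ℤ := ![![0, 0, 0, 1], ![0, 0, 1, 0], ![-1, -1, 0, -1 - q], ![0, 1, -q, 0]]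

theorem uvD4t (q : ℤ) : ∀ i j, ∑ m, uD4t q i m * vD4t q j m = if i = j then 1 else 0 := by
  intro i j
  fin_cases i <;> fin_cases j <;> simp [uD4t, vD4t, Fin.sum_univ_succ] <;> try ring1

theorem dvD4t (q : ℕ) : ∀ i m, ((![q ^ 2 + q + 1, q ^ 2 + q + 1, 1, 1] : Fin 4 → ℕ) i : ℤ) ∣ ∑ j, uD4t q i j *
      (WData.hd cD4t ((![2, 1, 3, 0] : Fin 4 → Fin 4) m) j - (q : ℤ) * (if m = j then 1 else 0)) := by
  intro i m
  fin_cases i <;> fin_cases m <;> simp [WData.hd, cD4t, uD4t, Fin.sum_univ_succ] <;>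
    first | done | (refine ⟨0, ?_⟩; ring1) | (refine ⟨-1, ?_⟩; ring1) | (refine ⟨1, ?_⟩; ring1)

/-- the functionals for the torus `(q²-q+1)²` -/
def uD4s (q : ℤ) : Fin 4 → Fin 4 → ℤ := ![![-1 + q, -q, 0, 1], ![q, -1, 1, 0], ![1, -1, 0, 0], ![1, 0, 0, 0]]

def vD4s (q : ℤ) : Fin 4 → Fin 4 → ℤ := ![![0, 0, 0, 1], ![0, 0, 1, 0], ![0, -1, -1, -q], ![1, 1, 1 - q, 1]]

theorem uvD4s (q : ℤ) : ∀ i j, ∑ m, uD4s q i m * vD4s q j m = if i = j then 1 else 0 := by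
  intro i j
  fin_cases i <;> fin_cases j <;> simp [uD4s, vD4s, Fin.sum_univ_succ] <;> try ring1

theorem dvD4s (q N : ℕ) (hN : (N : ℤ) = (q : ℤ) ^ 2 - q + 1) :
    ∀ i m, ((![N, N, 1, 1] : Fin 4 → ℕ) i : ℤ) ∣ ∑ j, uD4s q i j *
      (WData.hd cD4s ((![2, 1, 3, 0] : Fin 4 → Fin 4) m) j - (q : ℤ) * (if m = j then 1 else 0)) := by
  intro i m
  fin_cases i <;> fin_cases m <;> simp [WData.hd, cD4s, uD4s, Fin.sum_univ_succ, hN] <;>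
    first | done | (refine ⟨0, ?_⟩; ring1) | (refine ⟨-1, ?_⟩; ring1) | (refine ⟨1, ?_⟩; ring1)

section

variable {K : Type u} [Field K] [Fintype K] {q : ℕ} (hq : IsPrimePow q) (hK : Fintype.card K = q ^ 3)

include hq hK

theorem card_D4 : (Nat.card ↥(twistedD4 K q) : ℤ) =
    (q : ℤ) ^ 12 * ((q : ℤ) ^ 2 - 1) * ((q : ℤ) ^ 6 - 1) * ((q : ℤ) ^ 8 + (q : ℤ) ^ 4 + 1) := by
  have h0 : 0 < q := hq.pos
  have h := congrArg (Nat.cast : ℕ → ℤ) (Cfsg.Agent.S1067.result hq hK)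
  have hs : ∀ k : ℕ, ((q ^ k - 1 : ℕ) : ℤ) = (q : ℤ) ^ k - 1 := fun k => by
    rw [Nat.cast_sub (Nat.pow_pos h0)]; push_cast; ring
  simp only [Nat.cast_mul, hs, Nat.cast_pow, Nat.cast_add, Nat.cast_one] at h
  exact h

theorem abD4_2 : ∃ A : Subgroup ↥(twistedD4 K q), IsMulCommutative ↥A ∧
    (Nat.card A : ℤ) = ((q : ℤ) ^ 3 + 1) * ((q : ℤ) + 1) := by
  obtain ⟨-, A, -, hA, hc, -⟩ := exists_tor_D4 hq hK cD4m_ok ![q ^ 3 + 1, q + 1, 1, 1]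
    (by
      intro i
      fin_cases i
      · exact (UntwData.coprime_of_eq (q := q) (N := q ^ 3 + 1) (a := q ^ 2) (by push_cast; ring)).symm
      · exact (UntwData.coprime_of_eq (q := q) (N := q + 1) (a := 1) (by push_cast; ring)).symm
      · exact Nat.coprime_one_left q
      · exact Nat.coprime_one_left q)
    (uD4m q) (vD4m q) (uvD4m q) (dvD4m q)
  refine ⟨A, hc, ?_⟩
  rw [hA]
  simp [Fin.prod_univ_succ]

theorem abD4_3 : ∃ A : Subgroup ↥(twistedD4 K q), IsMulCommutative ↥A ∧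
    (Nat.card A : ℤ) = ((q : ℤ) ^ 2 + q + 1) ^ 2 := by
  have h1 : (q ^ 2 + q + 1).Coprime q :=
    (UntwData.coprime_of_eq (q := q) (N := q ^ 2 + q + 1) (a := q + 1) (by push_cast; ring)).symm
  obtain ⟨-, A, -, hA, hc, -⟩ := exists_tor_D4 hq hK cD4t_ok ![q ^ 2 + q + 1, q ^ 2 + q + 1, 1, 1]
    (by
      intro i
      fin_cases i
      · exact h1
      · exact h1
      · exact Nat.coprime_one_left q
      · exact Nat.coprime_one_left q)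
    (uD4t q) (vD4t q) (uvD4t q) (dvD4t q)
  refine ⟨A, hc, ?_⟩
  rw [hA]
  simp [Fin.prod_univ_succ]
  ring

theorem abD4_6 : ∃ A : Subgroup ↥(twistedD4 K q), IsMulCommutative ↥A ∧
    (Nat.card A : ℤ) = ((q : ℤ) ^ 2 - q + 1) ^ 2 := by
  obtain ⟨N, hN⟩ : ∃ N : ℕ, (N : ℤ) = (q : ℤ) ^ 2 - q + 1 := by
    refine ⟨((q : ℤ) ^ 2 - q + 1).toNat, Int.toNat_of_nonneg ?_⟩
    nlinarith [sq_nonneg ((q : ℤ) - 1)]
  have h1 : N.Coprime q :=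
    (UntwData.coprime_of_eq (q := q) (N := N) (a := q - 1) (by rw [hN]; ring)).symm
  obtain ⟨-, A, -, hA, hc, -⟩ := exists_tor_D4 hq hK cD4s_ok ![N, N, 1, 1]
    (by
      intro i
      fin_cases i
      · exact h1
      · exact h1
      · exact Nat.coprime_one_left q
      · exact Nat.coprime_one_left q)
    (uD4s q) (vD4s q) (uvD4s q) (dvD4s q N hN)
  refine ⟨A, hc, ?_⟩
  rw [hA]
  simp [Fin.prod_univ_succ, hN]
  ring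

theorem abD4_12 : ∃ A : Subgroup ↥(twistedD4 K q), IsMulCommutative ↥A ∧
    (Nat.card A : ℤ) = (q : ℤ) ^ 4 - (q : ℤ) ^ 2 + 1 := by
  obtain ⟨H, hH, hc, -⟩ := TwD4Cyc.coxeter_torus hq hK
  have h0 : q ^ 2 ≤ q ^ 4 := Nat.pow_le_pow_right hq.pos (by norm_num)
  refine ⟨H, ⟨⟨fun a b => ?_⟩⟩, by rw [hc]; push_cast [Nat.cast_sub h0]; ring⟩
  obtain ⟨g, hg⟩ := hH
  obtain ⟨m, rfl⟩ := hg a
  obtain ⟨n, rfl⟩ := hg b
  show g ^ m * g ^ n = g ^ n * g ^ m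
  rw [← zpow_add, ← zpow_add, add_comm]

theorem kill_D4_2 : Kill ↥(twistedD4 K q) q 2 2 := by
  obtain ⟨A, hc, hA⟩ := abD4_2 hq hK
  have key : ∀ p l : ℕ, p.Prime → l.Prime → p ≠ 2 → p ≠ 3 → p ≠ l → ord q p = 2 → ord q l = 2 →
      ¬ Same p l ↥(twistedD4 K q) := by
    intro p l hp hl hp2 hp3 hpl h1 h2
    have := Fact.mk hp
    have := Fact.mk hl
    refine not_same_of_abelian hp hl hpl hc hA
      (b := (q : ℤ) ^ 12 * ((q : ℤ) - 1) * ((q : ℤ) ^ 3 - 1) * ((q : ℤ) ^ 8 + (q : ℤ) ^ 4 + 1))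
      (by rw [card_D4 hq hK]; ring) ?_ ?_
    · push_cast
      rw [rel2 h1]
      have h3 : ((-1) ^ 12 * (-1 - 1) * ((-1) ^ 3 - 1) * ((-1) ^ 8 + (-1) ^ 4 + 1) : ZMod p) = 2 * 2 * 3 := by
        ring
      rw [h3]
      exact mul_ne_zero (mul_ne_zero (two_ne' hp2) (two_ne' hp2)) (three_ne' hp3)
    · push_cast
      rw [rel2 h2]
      ring
  intro p l hp hl hp2 hl2 hpl _ _ h1 h2
  by_cases hp3 : p = 3
  · exact fun h => key l p hl hp hl2 (fun h => hpl (hp3.trans h.symm)) hpl.symm h2 h1 h.symm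
  · exact key p l hp hl hp2 hp3 hpl h1 h2

theorem kill_D4_3 : Kill ↥(twistedD4 K q) q 3 3 := by
  obtain ⟨A, hc, hA⟩ := abD4_3 hq hK
  intro p l hp hl hp2 hl2 hpl _ _ h1 h2
  have := Fact.mk hp
  have := Fact.mk hl
  refine not_same_of_abelian hp hl hpl hc hA
    (b := (q : ℤ) ^ 12 * ((q : ℤ) ^ 2 - 1) * ((q : ℤ) - 1) * ((q : ℤ) ^ 3 + 1) * ((q : ℤ) ^ 2 - q + 1) *
      ((q : ℤ) ^ 4 - (q : ℤ) ^ 2 + 1))
    (by rw [card_D4 hq hK]; ring) ?_ ?_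
  · have h3 := rel3 h1
    have h4 : (((q : ℤ) ^ 12 * ((q : ℤ) ^ 2 - 1) * ((q : ℤ) - 1) * ((q : ℤ) ^ 3 + 1) * ((q : ℤ) ^ 2 - q + 1) *
      ((q : ℤ) ^ 4 - (q : ℤ) ^ 2 + 1) : ℤ) : ZMod p) = 2 * 2 * 2 * 3 := by
      push_cast
      have h5 : (q : ZMod p) ^ 3 = 1 := by linear_combination ((q : ZMod p) - 1) * h3
      have h6 : ((q : ZMod p) ^ 2 - 1) * ((q : ZMod p) - 1) = 3 := by
        linear_combination ((q : ZMod p) - 2) * h3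
      have h7 : (q : ZMod p) ^ 12 = 1 := by
        rw [show (12 : ℕ) = 3 * 4 from rfl, pow_mul, h5, one_pow]
      have h8 : (q : ZMod p) ^ 2 - q + 1 = -2 * q := by linear_combination h3
      have h9 : (q : ZMod p) ^ 4 - (q : ZMod p) ^ 2 + 1 = -2 * (q : ZMod p) ^ 2 := by
        linear_combination ((q : ZMod p) ^ 2 - q + 1) * h3
      rw [mul_assoc ((q : ZMod p) ^ 12), h6, h5, h7, h8, h9]
      linear_combination (24 : ZMod p) * h5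
    rw [h4]
    exact mul_ne_zero (mul_ne_zero (mul_ne_zero (two_ne' hp2) (two_ne' hp2)) (two_ne' hp2)) (three_ne_of3 h1)
  · push_cast
    rw [rel3 h2]
    ring

theorem kill_D4_6 : Kill ↥(twistedD4 K q) q 6 6 := by
  obtain ⟨A, hc, hA⟩ := abD4_6 hq hK
  intro p l hp hl hp2 hl2 hpl _ _ h1 h2
  have := Fact.mk hp
  have := Fact.mk hl
  refine not_same_of_abelian hp hl hpl hc hA
    (b := (q : ℤ) ^ 12 * ((q : ℤ) ^ 2 - 1) * ((q : ℤ) + 1) * ((q : ℤ) ^ 3 - 1) * ((q : ℤ) ^ 2 + q + 1) *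
      ((q : ℤ) ^ 4 - (q : ℤ) ^ 2 + 1))
    (by rw [card_D4 hq hK]; ring) ?_ ?_
  · have h3 := rel6 h1
    have h4 : (((q : ℤ) ^ 12 * ((q : ℤ) ^ 2 - 1) * ((q : ℤ) + 1) * ((q : ℤ) ^ 3 - 1) * ((q : ℤ) ^ 2 + q + 1) *
      ((q : ℤ) ^ 4 - (q : ℤ) ^ 2 + 1) : ℤ) : ZMod p) = 2 * 2 * 2 * 3 := by
      push_cast
      have h5 : (q : ZMod p) ^ 3 = -1 := by linear_combination ((q : ZMod p) + 1) * h3
      have h6 : ((q : ZMod p) ^ 2 - 1) * ((q : ZMod p) + 1) = -3 := by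
        linear_combination ((q : ZMod p) + 2) * h3
      have h7 : (q : ZMod p) ^ 12 = 1 := by
        rw [show (12 : ℕ) = 3 * 4 from rfl, pow_mul, h5]; ring
      have h8 : (q : ZMod p) ^ 2 + q + 1 = 2 * q := by linear_combination h3
      have h9 : (q : ZMod p) ^ 4 - (q : ZMod p) ^ 2 + 1 = -2 * (q : ZMod p) ^ 2 := by
        linear_combination ((q : ZMod p) ^ 2 + q + 1) * h3
      rw [mul_assoc ((q : ZMod p) ^ 12), h6, h5, h7, h8, h9]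
      linear_combination (-24 : ZMod p) * h5
    rw [h4]
    exact mul_ne_zero (mul_ne_zero (mul_ne_zero (two_ne' hp2) (two_ne' hp2)) (two_ne' hp2)) (three_ne_of6 h1)
  · push_cast
    rw [rel6 h2]
    ring

theorem kill_D4_12 : Kill ↥(twistedD4 K q) q 12 12 := by
  obtain ⟨A, hc, hA⟩ := abD4_12 hq hK
  intro p l hp hl hp2 hl2 hpl _ _ h1 h2
  have := Fact.mk hp
  have := Fact.mk hl
  refine not_same_of_abelian hp hl hpl hc hA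
    (b := (q : ℤ) ^ 12 * (((q : ℤ) ^ 2 - 1) * ((q : ℤ) ^ 4 + (q : ℤ) ^ 2 + 1)) * ((q : ℤ) ^ 6 - 1))
    (by rw [card_D4 hq hK]; ring) ?_ ?_
  · have h3 := rel12 h1
    have h4 : (((q : ℤ) ^ 12 * (((q : ℤ) ^ 2 - 1) * ((q : ℤ) ^ 4 + (q : ℤ) ^ 2 + 1)) * ((q : ℤ) ^ 6 - 1) : ℤ) :
        ZMod p) = 2 * 2 := by
      push_cast
      have h5 : (q : ZMod p) ^ 6 = -1 := by linear_combination ((q : ZMod p) ^ 2 + 1) * h3
      have h6 : ((q : ZMod p) ^ 2 - 1) * ((q : ZMod p) ^ 4 + (q : ZMod p) ^ 2 + 1) = -2 := by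
        linear_combination h5
      have h7 : (q : ZMod p) ^ 12 = 1 := by
        rw [show (12 : ℕ) = 6 * 2 from rfl, pow_mul, h5]; ring
      rw [h6, h5, h7]
      ring
    rw [h4]
    exact mul_ne_zero (two_ne' hp2) (two_ne' hp2)
  · push_cast
    exact rel12 h2

/-- **pairs of primes of the same order, `³D₄(q)`** -/
theorem tor_D4 : ∀ e ∈ [2, 3, 6, 12], Kill ↥(twistedD4 K q) q e e := by
  intro e he
  simp only [List.mem_cons, List.not_mem_nil, or_false] at he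
  rcases he with rfl | rfl | rfl | rfl
  · exact kill_D4_2 hq hK
  · exact kill_D4_3 hq hK
  · exact kill_D4_6 hq hK
  · exact kill_D4_12 hq hK

end

end Cfsg.Agent.H251.PQ
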