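import Cfsg.Agent.H251.PQ.TorExc
import Cfsg.Agent.H317.PQ.Exc
import Cfsg.Agent.H990.PQ.Core
import Cfsg.Agent.S1059
import Cfsg.Agent.S1067

/-!
# Principal blocks of `G₂(q)` and `³D₄(q)`: pairs of primes of the same order (helper251, S4612)

* `tor_G2` : `Kill G₂(q) q e e`, `e = 2, 3, 6`;
* `tor_D4` : `Kill ³D₄(q) q e e`, `e = 2, 3, 6, 12`.
-/

set_option autoImplicit false
set_option linter.unusedSectionVars false

namespace Cfsg.Agent.H251.PQ

open CoxeterSystem Cfsg Cfsg.Lie Cfsg.Lie.ChevalleyDatum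
open Cfsg.Agent.H129 Cfsg.Agent.H317.PQ Cfsg.Agent.Nodes

universe u

/-! ### arithmetic -/

section Arith

variable {q p : ℕ}

theorem ord_pow (n : ℕ) (hn : ord q p ∣ n) : (q : ZMod p) ^ n = 1 :=
  orderOf_dvd_iff_pow_eq_one.1 hn

theorem ord_pow_ne (n : ℕ) (hn : ¬ ord q p ∣ n) : (q : ZMod p) ^ n ≠ 1 := fun h =>
  hn (orderOf_dvd_iff_pow_eq_one.2 h)

theorem rel2 [Fact p.Prime] (h : ord q p = 2) : (q : ZMod p) = -1 := by
  have h1 := ord_pow (q := q) (p := p) 2 (by rw [h])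
  have h2 := ord_pow_ne (q := q) (p := p) 1 (by rw [h]; decide)
  rcases sq_eq_one_iff_of_ne_zero.1 h1 with h3 | h3
  · rw [pow_one] at h2; exact absurd h3 h2
  · exact h3
where sq_eq_one_iff_of_ne_zero {R : Type} [Field R] {x : R} : x ^ 2 = 1 ↔ x = 1 ∨ x = -1 := by
        constructor
        · intro hx
          have : (x - 1) * (x + 1) = 0 := by linear_combination hx
          rcases mul_eq_zero.1 this with h | h
          · exact Or.inl (sub_eq_zero.1 h)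
          · exact Or.inr (eq_neg_of_add_eq_zero_left h)
        · rintro (rfl | rfl) <;> ring

theorem rel3 [Fact p.Prime] (h : ord q p = 3) : (q : ZMod p) ^ 2 + q + 1 = 0 := by
  have h1 := ord_pow (q := q) (p := p) 3 (by rw [h])
  have h2 := ord_pow_ne (q := q) (p := p) 1 (by rw [h]; decide)
  rw [pow_one] at h2
  have h3 : ((q : ZMod p) - 1) * ((q : ZMod p) ^ 2 + q + 1) = 0 := by linear_combination h1
  exact (mul_eq_zero.1 h3).resolve_left (sub_ne_zero.2 h2)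

theorem rel6 [Fact p.Prime] (h : ord q p = 6) : (q : ZMod p) ^ 2 - q + 1 = 0 := by
  have h1 := ord_pow (q := q) (p := p) 6 (by rw [h])
  have h2 := ord_pow_ne (q := q) (p := p) 2 (by rw [h]; decide)
  have h3 := ord_pow_ne (q := q) (p := p) 3 (by rw [h]; decide)
  have h4 : ((q : ZMod p) ^ 3 - 1) * ((q : ZMod p) ^ 3 + 1) = 0 := by linear_combination h1
  have h5 := (mul_eq_zero.1 h4).resolve_left (sub_ne_zero.2 h3)
  have h6 : ((q : ZMod p) + 1) * ((q : ZMod p) ^ 2 - q + 1) = 0 := by linear_combination h5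
  refine (mul_eq_zero.1 h6).resolve_left fun h7 => h2 ?_
  linear_combination ((q : ZMod p) - 1) * h7

theorem rel12 [Fact p.Prime] (h : ord q p = 12) : (q : ZMod p) ^ 4 - (q : ZMod p) ^ 2 + 1 = 0 := by
  have h1 := ord_pow (q := q) (p := p) 12 (by rw [h])
  have h2 := ord_pow_ne (q := q) (p := p) 4 (by rw [h]; decide)
  have h3 := ord_pow_ne (q := q) (p := p) 6 (by rw [h]; decide)
  have h4 : ((q : ZMod p) ^ 6 - 1) * ((q : ZMod p) ^ 6 + 1) = 0 := by linear_combination h1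
  have h5 := (mul_eq_zero.1 h4).resolve_left (sub_ne_zero.2 h3)
  have h6 : ((q : ZMod p) ^ 2 + 1) * ((q : ZMod p) ^ 4 - (q : ZMod p) ^ 2 + 1) = 0 := by linear_combination h5
  refine (mul_eq_zero.1 h6).resolve_left fun h7 => h2 ?_
  linear_combination ((q : ZMod p) ^ 2 - 1) * h7

theorem natCast_ne_zero' [Fact p.Prime] (n : ℕ) (h : ¬ p ∣ n) : ((n : ℕ) : ZMod p) ≠ 0 := by
  rwa [Ne, ZMod.natCast_eq_zero_iff]

theorem two_ne' [Fact p.Prime] (hp2 : p ≠ 2) : (2 : ZMod p) ≠ 0 := by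
  have h1 := natCast_ne_zero' (p := p) 2 (fun h => hp2 ((Nat.prime_dvd_prime_iff_eq Fact.out Nat.prime_two).1 h))
  simpa using h1

theorem three_ne_of3 [Fact p.Prime] (h : ord q p = 3) : (3 : ZMod p) ≠ 0 := by
  intro h3
  have h1 := rel3 h
  have h2 : ((q : ZMod p) - 1) ^ 2 = 0 := by linear_combination h1 - (q : ZMod p) * h3
  have h4 := ord_pow_ne (q := q) (p := p) 1 (by rw [h]; decide)
  rw [pow_one] at h4
  exact h4 (sub_eq_zero.1 (pow_eq_zero_iff (two_ne_zero)|>.1 h2))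

theorem three_ne_of6 [Fact p.Prime] (h : ord q p = 6) : (3 : ZMod p) ≠ 0 := by
  intro h3
  have h1 := rel6 h
  have h2 : ((q : ZMod p) + 1) ^ 2 = 0 := by linear_combination h1 + (q : ZMod p) * h3
  have h4 := ord_pow_ne (q := q) (p := p) 2 (by rw [h]; decide)
  have h5 := (pow_eq_zero_iff (two_ne_zero)).1 h2
  apply h4
  linear_combination ((q : ZMod p) - 1) * h5

theorem three_ne' [Fact p.Prime] (hp3 : p ≠ 3) : (3 : ZMod p) ≠ 0 := by
  have h1 := natCast_ne_zero' (p := p) 3 (fun h => hp3 ((Nat.prime_dvd_prime_iff_eq Fact.out Nat.prime_three).1 h))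
  simpa using h1

end Arith

/-! ### the test -/

/-- **An abelian subgroup of order `a` with index `b` prime to `p`.** -/
theorem not_same_of_abelian {G : Type u} [Group G] [Finite G] {p l : ℕ} (hp : p.Prime) (hl : l.Prime) (hpl : p ≠ l)
    {A : Subgroup G} (hA : IsMulCommutative ↥A) {a b : ℤ} (ha : (Nat.card A : ℤ) = a)
    (hG : (Nat.card G : ℤ) = a * b) (hb : ((b : ℤ) : ZMod p) ≠ 0) (hal : ((a : ℤ) : ZMod l) = 0) : ¬ Same p l G := by
  intro h
  have h1 : ¬ p ∣ A.index := by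
    intro h2
    have h3 : (Nat.card A : ℤ) * (A.index : ℤ) = (Nat.card G : ℤ) := by
      rw [← Nat.cast_mul, Subgroup.card_mul_index]
    have h4 : (A.index : ℤ) = b := by
      have h5 : (Nat.card A : ℤ) ≠ 0 := Nat.cast_ne_zero.2 Nat.card_pos.ne'
      apply mul_left_cancel₀ h5
      rw [h3, hG, ha]
    apply hb
    rw [← h4, Int.cast_natCast, ZMod.natCast_eq_zero_iff]
    exact h2
  refine H990.PQ.Same.core_abelian hp hl hpl h A hA h1 ?_
  rw [← ZMod.natCast_eq_zero_iff, ← Int.cast_natCast, ha]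
  exact hal

/-! ### `G₂(q)` -/

section G2

variable {F : Type u} [Field F] [Fintype F] {q : ℕ} (hq : Fintype.card F = q)

include hq

theorem card_G2 : (Nat.card ↥(chevG2.group F) : ℤ) = (q : ℤ) ^ 6 * ((q : ℤ) ^ 2 - 1) * ((q : ℤ) ^ 6 - 1) := by
  have h0 : 0 < q := hq ▸ Fintype.card_pos
  have h := congrArg (Nat.cast : ℕ → ℤ) (Cfsg.Agent.S1059.result hq)
  have hs : ∀ k : ℕ, ((q ^ k - 1 : ℕ) : ℤ) = (q : ℤ) ^ k - 1 := fun k => by
    rw [Nat.cast_sub (Nat.pow_pos h0)]; push_cast; ring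
  simp only [Nat.cast_mul, hs, Nat.cast_pow] at h
  exact h

omit hq in
/-- `-1` -/
def cG2m : List (Fin 2 × WData.Mat 2) := [(1, ![![-1, 0], ![0, -1]]), (0, ![![-1, -1], ![0, 1]]),
  (1, ![![-2, -1], ![3, 1]]), (0, ![![-2, -1], ![3, 2]]), (1, ![![-1, -1], ![3, 2]]), (0, ![![-1, 0], ![3, 1]])]

omit hq in
/-- an element of order 3 -/
def cG2t : List (Fin 2 × WData.Mat 2) :=
  [(1, ![![-2, -1], ![3, 1]]), (0, ![![-2, -1], ![3, 2]]), (1, ![![-1, -1], ![3, 2]]), (0, ![![-1, 0], ![3, 1]])]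

omit hq in
/-- an element of order 6 -/
def cG2s : List (Fin 2 × WData.Mat 2) := [(1, ![![-1, -1], ![3, 2]]), (0, ![![-1, 0], ![3, 1]])]

omit hq in
theorem cG2m_ok : WData.ChainOK DataG2.Am cG2m := by decide +kernel
omit hq in
theorem cG2t_ok : WData.ChainOK DataG2.Am cG2t := by decide +kernel
omit hq in
theorem cG2s_ok : WData.ChainOK DataG2.Am cG2s := by decide +kernel

theorem abG2_2 : ∃ A : Subgroup ↥(chevG2.group F), IsMulCommutative ↥A ∧ (Nat.card A : ℤ) = ((q : ℤ) + 1) ^ 2 := by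
  obtain ⟨-, A, -, hA, hc, -⟩ := exists_tor_G2 hq cG2m_ok (fun _ => q + 1)
    (fun _ => UntwData.coprime_of_eq (a := 1) (by push_cast; ring) |>.symm)
    (fun i j => if i = j then 1 else 0) (fun i j => if i = j then 1 else 0)
    (by intro i j; fin_cases i <;> fin_cases j <;> simp)
    (by
      intro i m
      fin_cases i <;> fin_cases m <;> simp [WData.hd, cG2m, Fin.sum_univ_succ] <;>
        exact ⟨-1, by ring1⟩)
  refine ⟨A, hc, ?_⟩
  rw [hA, Fin.prod_univ_two]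
  push_cast
  ring

theorem abG2_3 : ∃ A : Subgroup ↥(chevG2.group F), IsMulCommutative ↥A ∧
    (Nat.card A : ℤ) = (q : ℤ) ^ 2 + q + 1 := by
  obtain ⟨-, A, -, hA, hc, -⟩ := exists_tor_G2 hq cG2t_ok ![q ^ 2 + q + 1, 1]
    (by
      intro i
      fin_cases i
      · exact (UntwData.coprime_of_eq (q := q) (N := q ^ 2 + q + 1) (a := q + 1) (by push_cast; ring)).symm
      · exact Nat.coprime_one_left q)
    ![![1, -2 - (q : ℤ)], ![0, -1]] ![![1, 0], ![-2 - (q : ℤ), -1]]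
    (by intro i j; fin_cases i <;> fin_cases j <;> simp [Fin.sum_univ_succ] <;> ring)
    (by
      intro i m
      fin_cases i <;> fin_cases m <;> simp [WData.hd, cG2t, Fin.sum_univ_succ] <;>
        first | (refine ⟨0, ?_⟩; ring1) | (refine ⟨-1, ?_⟩; ring1) | (refine ⟨1, ?_⟩; ring1))
  refine ⟨A, hc, ?_⟩
  rw [hA, Fin.prod_univ_two]
  simp

theorem abG2_6 : ∃ A : Subgroup ↥(chevG2.group F), IsMulCommutative ↥A ∧
    (Nat.card A : ℤ) = (q : ℤ) ^ 2 - q + 1 := by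
  obtain ⟨N, hN⟩ : ∃ N : ℕ, (N : ℤ) = (q : ℤ) ^ 2 - q + 1 := by
    refine ⟨((q : ℤ) ^ 2 - q + 1).toNat, Int.toNat_of_nonneg ?_⟩
    nlinarith [sq_nonneg ((q : ℤ) - 1)]
  obtain ⟨-, A, -, hA, hc, -⟩ := exists_tor_G2 hq cG2s_ok ![N, 1]
    (by
      intro i
      fin_cases i
      · exact (UntwData.coprime_of_eq (q := q) (N := N) (a := q - 1) (by rw [hN]; ring)).symm
      · exact Nat.coprime_one_left q)
    ![![1, -1 - (q : ℤ)], ![0, -1]] ![![1, 0], ![-1 - (q : ℤ), -1]]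
    (by intro i j; fin_cases i <;> fin_cases j <;> simp [Fin.sum_univ_succ] <;> ring)
    (by
      intro i m
      fin_cases i <;> fin_cases m <;> simp [WData.hd, cG2s, Fin.sum_univ_succ, hN] <;>
        first | (refine ⟨0, ?_⟩; ring1) | (refine ⟨-1, ?_⟩; ring1) | (refine ⟨1, ?_⟩; ring1))
  refine ⟨A, hc, ?_⟩
  rw [hA, Fin.prod_univ_two]
  simp [hN]

theorem kill_G2_2 : Kill ↥(chevG2.group F) q 2 2 := by
  obtain ⟨A, hc, hA⟩ := abG2_2 hq
  have key : ∀ p l : ℕ, p.Prime → l.Prime → p ≠ 2 → p ≠ 3 → p ≠ l → ord q p = 2 → ord q l = 2 →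
      ¬ Same p l ↥(chevG2.group F) := by
    intro p l hp hl hp2 hp3 hpl h1 h2
    have := Fact.mk hp
    have := Fact.mk hl
    refine not_same_of_abelian hp hl hpl hc hA
      (b := (q : ℤ) ^ 6 * ((q : ℤ) - 1) ^ 2 * ((q : ℤ) ^ 2 + q + 1) * ((q : ℤ) ^ 2 - q + 1))
      (by rw [card_G2 hq]; ring) ?_ ?_
    · push_cast
      rw [rel2 h1]
      have h3 : ((-1) ^ 6 * ((-1) - 1) ^ 2 * ((-1) ^ 2 + -1 + 1) * ((-1) ^ 2 - -1 + 1) : ZMod p) = 2 * 2 * 3 := by
        ring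
      rw [h3]
      exact mul_ne_zero (mul_ne_zero (two_ne' hp2) (two_ne' hp2)) (three_ne' hp3)
    · push_cast
      rw [rel2 h2]
      ring
  intro p l hp hl hp2 hl2 hpl _ _ h1 h2
  by_cases hp3 : p = 3
  · exact fun h => key l p hl hp hl2 (fun h => hpl (hp3.trans h.symm)) hpl.symm h2 h1 h.symm
  · exact key p l hp hl hp2 hp3 hpl h1 h2

theorem kill_G2_3 : Kill ↥(chevG2.group F) q 3 3 := by
  obtain ⟨A, hc, hA⟩ := abG2_3 hq
  intro p l hp hl hp2 hl2 hpl _ _ h1 h2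
  have := Fact.mk hp
  have := Fact.mk hl
  refine not_same_of_abelian hp hl hpl hc hA
    (b := (q : ℤ) ^ 6 * ((q : ℤ) ^ 2 - 1) * ((q : ℤ) - 1) * ((q : ℤ) ^ 3 + 1))
    (by rw [card_G2 hq]; ring) ?_ ?_
  · have h3 := rel3 h1
    have h4 : (((q : ℤ) ^ 6 * ((q : ℤ) ^ 2 - 1) * ((q : ℤ) - 1) * ((q : ℤ) ^ 3 + 1) : ℤ) : ZMod p) = 2 * 3 := by
      push_cast
      have h5 : (q : ZMod p) ^ 3 = 1 := by linear_combination ((q : ZMod p) - 1) * h3
      have h6 : ((q : ZMod p) ^ 2 - 1) * ((q : ZMod p) - 1) = 3 := by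
        linear_combination ((q : ZMod p) - 2) * h3
      have h7 : (q : ZMod p) ^ 6 = 1 := by linear_combination ((q : ZMod p) ^ 3 + 1) * h5
      rw [mul_assoc ((q : ZMod p) ^ 6), h6, h5, h7]
      ring
    rw [h4]
    exact mul_ne_zero (two_ne' hp2) (three_ne_of3 h1)
  · push_cast
    exact rel3 h2

theorem kill_G2_6 : Kill ↥(chevG2.group F) q 6 6 := by
  obtain ⟨A, hc, hA⟩ := abG2_6 hq
  intro p l hp hl hp2 hl2 hpl _ _ h1 h2
  have := Fact.mk hp
  have := Fact.mk hl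
  refine not_same_of_abelian hp hl hpl hc hA
    (b := (q : ℤ) ^ 6 * ((q : ℤ) ^ 2 - 1) * ((q : ℤ) + 1) * ((q : ℤ) ^ 3 - 1))
    (by rw [card_G2 hq]; ring) ?_ ?_
  · have h3 := rel6 h1
    have h4 : (((q : ℤ) ^ 6 * ((q : ℤ) ^ 2 - 1) * ((q : ℤ) + 1) * ((q : ℤ) ^ 3 - 1) : ℤ) : ZMod p) = 2 * 3 := by
      push_cast
      have h5 : (q : ZMod p) ^ 3 = -1 := by linear_combination ((q : ZMod p) + 1) * h3
      have h6 : ((q : ZMod p) ^ 2 - 1) * ((q : ZMod p) + 1) = -3 := by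
        linear_combination ((q : ZMod p) + 2) * h3
      have h7 : (q : ZMod p) ^ 6 = 1 := by linear_combination ((q : ZMod p) ^ 3 - 1) * h5
      rw [mul_assoc ((q : ZMod p) ^ 6), h6, h5, h7]
      ring
    rw [h4]
    exact mul_ne_zero (two_ne' hp2) (three_ne_of6 h1)
  · push_cast
    exact rel6 h2

/-- **pairs of primes of the same order, `G₂(q)`** -/
theorem tor_G2 : ∀ e ∈ [2, 3, 6], Kill ↥(chevG2.group F) q e e := by
  intro e he
  simp only [List.mem_cons, List.not_mem_nil, or_false] at he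
  rcases he with rfl | rfl | rfl
  · exact kill_G2_2 hq
  · exact kill_G2_3 hq
  · exact kill_G2_6 hq

end G2

end Cfsg.Agent.H251.PQ
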