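import Cfsg.Agent.H942.CB.Cell

/-!
# Twisted tori of finite groups of Lie type, and their centralisers (helper251, S4612)

* `exists_sub` : a subgroup of order `∏ d i` of the torus, fixed by a Frobenius frame automorphism;
* `exists_tor` : the abelian subgroup of order `∏ d i` of the finite group;
* `mem_TT_of_set` : the centraliser of a subset of the torus on which no root is trivial.
-/

set_option autoImplicit false
set_option linter.unusedSectionVars false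

namespace Cfsg.Agent.H251.PQ

open CoxeterSystem Cfsg Cfsg.Lie Cfsg.Lie.ChevalleyDatum
open Cfsg.Agent.ChevalleyStructure Cfsg.Agent.ChevalleyStructure.Elts Cfsg.Agent.ChevalleyStructure.CoxeterGeom
  Cfsg.Agent.ChevalleyStructure.CoxeterGeomTypes Cfsg.Agent.ChevalleyStructure.NPerm
open Cfsg.Agent.Tits.Roots Cfsg.Agent.Tits.Core Cfsg.Agent.Nodes Cfsg.Agent.Nodes.Reps Cfsg.Agent.Nodes.BNOf
  Cfsg.Agent.Nodes.RGDChev Cfsg.Agent.Nodes.Bruhat Cfsg.Agent.Nodes.SubComb Cfsg.Agent.Nodes.Coroot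
  Cfsg.Agent.Nodes.NormalForm
open Cfsg.Agent.KFacts.RgdField Cfsg.Agent.KFacts.RgdChevCoord Cfsg.Agent.BpExc.TorCent Cfsg.Agent.BpExc.TorChev
open Cfsg.Agent.GpExc.Field Cfsg.Agent.BpExc.Tow Cfsg.Agent.BpExc.TowChev Cfsg.Agent.BpExc.Fr
  Cfsg.Agent.BpExc.LangFr Cfsg.Agent.LangThm Cfsg.Agent.BpExc Cfsg.Agent.H129.TorusChar Cfsg.Agent.H129.TorusMain
open Cfsg.Agent.H720.TorusReal Cfsg.Agent.Nodes.Unique Cfsg.Agent.H897.T5Cent Cfsg.Agent.H795.SetCent
open Cfsg.Agent.H897.T5Lat (Frm bf bf_apply)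

universe u v

section

variable {D : ChevalleyDatum} {l : ℕ} {M : CoxeterMatrix (Fin l)} (hp : IsType D l M) {k : Type u} [Field k]
  [IsAlgClosed k] {W : Type v} [Group W] [Finite W] (cs : CoxeterSystem M W) (hk : LocFin k) {p e : ℕ} [Fact p.Prime]
  [CharP k p] {τ : MulAut ↥(D.group k)} {g : (Fin l → ℤ) ≃+ (Fin l → ℤ)}

/-- the value of the element of the torus with parameters `a` -/
noncomputable def vl (ζ : Fin l → k) (U : Fin l → Fin l → ℤ) (a x : Fin l → ℤ) : k :=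
  ∏ i, ζ i ^ (a i * ∑ j, U i j * x j)

include cs hk in
/-- **Fixed points in the torus**: a subgroup of order `∏ d i`. -/
theorem exists_sub (hτ : IsFrob p e τ) (F : Fr cs hp.isCartan (TT D k) (XX D l k) τ g) {d' : ℕ}
    {B' : Fin l → Fin l → ℤ} (hB : InvC D l d' B') (hd' : d' ≠ 0) (d : Fin l → ℕ) (hd0 : ∀ i, d i ≠ 0)
    (hdp : ∀ i, (d i).Coprime p) (U f : Fin l → Fin l → ℤ)
    (hUf : ∀ i j, ∑ m, U i m * f j m = if i = j then 1 else 0)
    (hU : ∀ i m, (d i : ℤ) ∣ ∑ j, U i j * (g (sr m) - ((p ^ e : ℕ) : ℤ) • (sr m : Fin l → ℤ)) j) :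
    ∃ (S : Subgroup ↥(D.group k)) (ζ : Fin l → k), Nat.card S = ∏ i, d i ∧ (∀ i, IsPrimitiveRoot (ζ i) (d i)) ∧
      (∀ t ∈ S, t ∈ TT D k ∧ τ t = t) ∧ (∀ a : Fin l → ℤ, ∃ t ∈ S, ∀ x, cX hp t x = vl ζ U a x) := by
  classical
  have hζ : ∀ i, ∃ ζ : k, IsPrimitiveRoot ζ (d i) := fun i =>
    Cfsg.Agent.H942.CB.exists_prim' p (hd0 i) (hdp i)
  choose ζ hζ using hζ
  have hζ0 : ∀ i, ζ i ≠ 0 := fun i => (hζ i).ne_zero (hd0 i)
  let ℓ : Fin l → (Fin l → ℤ) →+ ℤ := fun i => AddMonoidHom.mk' (fun x => ∑ j, U i j * x j) (by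
    intro x y
    simp only [Pi.add_apply, mul_add, Finset.sum_add_distrib])
  have hℓ : ∀ i x, ℓ i x = ∑ j, U i j * x j := fun _ _ => rfl
  -- the functional modulo `d i`
  have hℓg : ∀ i x, (d i : ℤ) ∣ ℓ i (g x - ((p ^ e : ℕ) : ℤ) • x) := by
    intro i x
    have h1 : g x - ((p ^ e : ℕ) : ℤ) • x = ∑ m, x m • (g (sr m) - ((p ^ e : ℕ) : ℤ) • (sr m : Fin l → ℤ)) := by
      conv_lhs => rw [IsMC.eq_sum_sr x]
      rw [map_sum, Finset.smul_sum, ← Finset.sum_sub_distrib]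
      refine Finset.sum_congr rfl fun m _ => ?_
      rw [map_zsmul, smul_sub, smul_comm]
    rw [h1, map_sum]
    refine Finset.dvd_sum fun m _ => ?_
    rw [map_zsmul, smul_eq_mul]
    exact Dvd.dvd.mul_left (hU i m) _
  have hφ : ∀ a : Fin l → ℤ, IsMC (vl ζ U a) := by
    intro a
    refine ⟨?_, fun x y => ?_⟩
    · unfold vl
      simp
    · unfold vl
      rw [← Finset.prod_mul_distrib]
      refine Finset.prod_congr rfl fun i _ => ?_
      rw [← hℓ, ← hℓ, ← hℓ, map_add, mul_add, zpow_add₀ (hζ0 i)]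
  have hex : ∀ a, ∃ t ∈ TT D k, ∀ x, cX hp t x = vl ζ U a x := fun a =>
    exists_cX hp hB hd' (hφ a) (fun i => IsAlgClosed.exists_pow_nat_eq _ (Nat.pos_of_ne_zero hd'))
  choose t ht htφ using hex
  have hadd : ∀ a b x, vl ζ U (a + b) x = vl ζ U a x * vl ζ U b x := by
    intro a b x
    unfold vl
    rw [← Finset.prod_mul_distrib]
    refine Finset.prod_congr rfl fun i _ => ?_
    rw [Pi.add_apply, add_mul, zpow_add₀ (hζ0 i)]
  have hneg : ∀ a x, vl ζ U (-a) x = (vl ζ U a x)⁻¹ := by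
    intro a x
    unfold vl
    rw [← Finset.prod_inv_distrib]
    refine Finset.prod_congr rfl fun i _ => ?_
    rw [Pi.neg_apply, neg_mul, zpow_neg]
  have hzero : ∀ x, vl ζ U 0 x = 1 := by
    intro x
    unfold vl
    simp
  let S : Subgroup ↥(D.group k) :=
    { carrier := {s | s ∈ TT D k ∧ ∃ a : Fin l → ℤ, ∀ x, cX hp s x = vl ζ U a x}
      one_mem' := ⟨one_mem _, 0, fun x => by rw [cX_one, hzero]⟩
      mul_mem' := by
        rintro s s' ⟨hs, a, ha⟩ ⟨hs', b, hb⟩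
        exact ⟨mul_mem hs hs', a + b, fun x => by rw [cX_mul hp hs hs', ha, hb, hadd]⟩
      inv_mem' := by
        rintro s ⟨hs, a, ha⟩
        refine ⟨inv_mem hs, -a, fun x => ?_⟩
        have h1 : cX hp s x * cX hp s⁻¹ x = 1 := by
          rw [← cX_mul hp hs (inv_mem hs), mul_inv_cancel, cX_one]
        rw [hneg, ← ha]
        exact (inv_eq_of_mul_eq_one_right h1).symm }
  have hmemS : ∀ s, s ∈ S ↔ s ∈ TT D k ∧ ∃ a : Fin l → ℤ, ∀ x, cX hp s x = vl ζ U a x := fun _ => Iff.rfl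
  -- the cardinality
  have hval : ∀ (a : Fin l → ℤ) i, vl ζ U a (f i) = ζ i ^ a i := by
    intro a i
    unfold vl
    rw [Finset.prod_eq_single i]
    · rw [hUf, if_pos rfl, mul_one]
    · intro j _ hj
      rw [hUf, if_neg hj, mul_zero, zpow_zero]
    · intro h
      exact absurd (Finset.mem_univ i) h
  have hmod : ∀ (a : Fin l → ℤ) x, vl ζ U a x = vl ζ U (fun i => ((a i) % (d i : ℤ))) x := by
    intro a x
    unfold vl
    refine Finset.prod_congr rfl fun i _ => ?_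
    rw [zpow_mul, zpow_mul]
    congr 1
    conv_lhs => rw [← Int.mul_ediv_add_emod (a i) (d i)]
    rw [zpow_add₀ (hζ0 i), zpow_mul, zpow_natCast, (hζ i).pow_eq_one, one_zpow, one_mul]
  let Φ : (∀ i, Fin (d i)) → ↥S := fun a => ⟨t (fun i => ((a i : ℕ) : ℤ)), ht _, _, htφ _⟩
  have hΦ : Function.Bijective Φ := by
    constructor
    · intro a b hab
      funext i
      have h0 : t (fun i => ((a i : ℕ) : ℤ)) = t (fun i => ((b i : ℕ) : ℤ)) := congrArg Subtype.val hab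
      have h1 : vl ζ U (fun i => ((a i : ℕ) : ℤ)) (f i) = vl ζ U (fun i => ((b i : ℕ) : ℤ)) (f i) := by
        rw [← htφ, ← htφ, h0]
      rw [hval, hval, zpow_natCast, zpow_natCast] at h1
      exact Fin.ext ((hζ i).pow_inj (a i).2 (b i).2 h1)
    · rintro ⟨s, hs⟩
      obtain ⟨hs1, a, ha⟩ := (hmemS s).1 hs
      have hpos : ∀ i, (0 : ℤ) < d i := fun i => Int.natCast_pos.2 (Nat.pos_of_ne_zero (hd0 i))
      refine ⟨fun i => ⟨((a i) % (d i : ℤ)).toNat, ?_⟩, ?_⟩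
      · have := Int.emod_lt_of_pos (a i) (hpos i)
        have h2 := Int.emod_nonneg (a i) (hpos i).ne'
        omega
      · apply Subtype.ext
        show t _ = s
        refine cX_inj hp (ht _) hs1 fun i => ?_
        rw [htφ, ha, hmod a]
        congr 1
        funext j
        exact Int.toNat_of_nonneg (Int.emod_nonneg _ (hpos j).ne')
  refine ⟨S, ζ, ?_, hζ, ?_, fun a => ⟨t a, (hmemS _).2 ⟨ht a, a, htφ a⟩, htφ a⟩⟩
  · rw [← Nat.card_congr (Equiv.ofBijective Φ hΦ), Nat.card_eq_fintype_card, Fintype.card_pi]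
    simp
  · intro y hy
    obtain ⟨hy1, a, ha⟩ := (hmemS y).1 hy
    refine ⟨hy1, ?_⟩
    have hτt : τ y ∈ TT D k := (F.tor y).2 hy1
    refine cX_inj hp hτt hy1 fun i => ?_
    have h1 := cX_sigma hp cs hτ F hy1 (g.symm (sr i))
    rw [AddEquiv.apply_symm_apply] at h1
    rw [h1, ha, ha]
    unfold vl
    rw [← Finset.prod_pow]
    refine Finset.prod_congr rfl fun j _ => ?_
    obtain ⟨c, hc⟩ := hℓg j (g.symm (sr i))
    rw [AddEquiv.apply_symm_apply, map_sub, map_zsmul, smul_eq_mul] at hc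
    have h2 : ℓ j (sr i) = ((p ^ e : ℕ) : ℤ) * ℓ j (g.symm (sr i)) + (d j : ℤ) * c := by linarith
    rw [← hℓ, ← hℓ, h2, mul_add, zpow_add₀ (hζ0 j)]
    have h3 : ζ j ^ (a j * ((d j : ℤ) * c)) = 1 := by
      rw [mul_left_comm, zpow_mul, zpow_natCast, (hζ j).pow_eq_one, one_zpow]
    rw [h3, mul_one, ← zpow_natCast, ← zpow_mul]
    congr 1
    ring

/-! ### the finite group -/

variable {G0 : Type*} [Group G0] {e0 : G0 →* ↥(D.group k)}

include cs hk in
/-- **Twisted tori** of the finite group `G0` of the fixed points of `σ`. -/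
theorem exists_tor (he : 0 < e) {σ : MulAut ↥(D.group k)} (hσ : IsFrob p e σ)
    (F : Fr cs hp.isCartan (TT D k) (XX D l k) σ g) {d' : ℕ} {B' : Fin l → Fin l → ℤ} (hB : InvC D l d' B')
    (hd' : d' ≠ 0) (w : W) (he0 : Function.Injective e0) (hran : ∀ y, σ y = y → y ∈ e0.range)
    (d : Fin l → ℕ) (hd0 : ∀ i, d i ≠ 0)
    (hdp : ∀ i, (d i).Coprime p) (U f : Fin l → Fin l → ℤ)
    (hUf : ∀ i j, ∑ m, U i m * f j m = if i = j then 1 else 0)
    (hU : ∀ i m, (d i : ℤ) ∣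
      ∑ j, U i j * (theta hp cs w g (sr m) - ((p ^ e : ℕ) : ℤ) • (sr m : Fin l → ℤ)) j) :
    ∃ (z : ↥(D.group k)) (A : Subgroup G0) (ζ : Fin l → k), Nat.card A = ∏ i, d i ∧ IsMulCommutative ↥A ∧
      (∀ x ∈ A, z⁻¹ * e0 x * z ∈ TT D k) ∧ (∀ i, IsPrimitiveRoot (ζ i) (d i)) ∧
      (∀ a : Fin l → ℤ, ∃ x ∈ A, ∀ v, cX hp (z⁻¹ * e0 x * z) v = vl ζ U a v) := by
  classical
  have hN : NSys M (TT D k) (nc hp k) := Cfsg.Agent.H942.CB.nsysT hp hk p
  obtain ⟨n, hn⟩ := exists_rp cs hN w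
  obtain ⟨z, hz⟩ := lang_all hp cs he hσ F 1 n
  rw [map_one, one_mul] at hz
  have hτF : IsFrob p e (MulAut.conj n * σ) := hσ.conj_mul n
  have F1 : Fr cs hp.isCartan (TT D k) (XX D l k) (MulAut.conj n * σ) (g.trans (repAut cs hp.isCartan w)) :=
    (fr_conj hp cs hk p hn).mul F
  obtain ⟨S, ζ, hSc, hζ, hS, hSa⟩ := exists_sub hp cs hk hτF F1 hB hd' d hd0 hdp U f hUf hU
  let c : MulAut ↥(D.group k) := MulAut.conj z⁻¹
  let A : Subgroup G0 := S.comap (c.toMonoidHom.comp e0)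
  have hmem : ∀ x, x ∈ A ↔ z⁻¹ * e0 x * z ∈ S := by
    intro x
    show z⁻¹ * e0 x * (z⁻¹)⁻¹ ∈ S ↔ _
    rw [inv_inv]
  have hfix : ∀ s ∈ S, ∃ x : G0, e0 x = z * s * z⁻¹ := by
    intro s hs
    apply hran
    have h1 : n * σ s * n⁻¹ = s := (hS s hs).2
    have h2 : σ z = z * n := by rw [hz]; group
    rw [map_mul, map_mul, map_inv, h2]
    calc z * n * σ s * (z * n)⁻¹ = z * (n * σ s * n⁻¹) * z⁻¹ := by group
      _ = _ := by rw [h1]
  have hbij : Function.Bijective (fun x : ↥A => (⟨z⁻¹ * e0 x * z, (hmem x).1 x.2⟩ : ↥S)) := by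
    constructor
    · intro x y hxy
      have h1 : z⁻¹ * e0 x * z = z⁻¹ * e0 y * z := congrArg Subtype.val hxy
      exact Subtype.ext (he0 (mul_left_cancel (mul_right_cancel h1)))
    · rintro ⟨s, hs⟩
      obtain ⟨x, hx⟩ := hfix s hs
      have h1 : z⁻¹ * e0 x * z = s := by rw [hx]; group
      exact ⟨⟨x, (hmem x).2 (by rw [h1]; exact hs)⟩, Subtype.ext h1⟩
  refine ⟨z, A, ζ, ?_, ⟨⟨?_⟩⟩, fun x hx => (hS _ ((hmem x).1 hx)).1, hζ, ?_⟩
  · rw [← hSc]
    exact Nat.card_congr (Equiv.ofBijective _ hbij)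
  · intro x y
    apply hbij.1
    apply Subtype.ext
    have hx := (hS _ ((hmem x).1 x.2)).1
    have hy := (hS _ ((hmem y).1 y.2)).1
    have h1 := TT_comm hp hx hy
    show z⁻¹ * e0 (x * y) * z = z⁻¹ * e0 (y * x) * z
    rw [map_mul, map_mul]
    calc z⁻¹ * (e0 x * e0 y) * z = (z⁻¹ * e0 x * z) * (z⁻¹ * e0 y * z) := by group
      _ = (z⁻¹ * e0 y * z) * (z⁻¹ * e0 x * z) := h1
      _ = _ := by group
  · intro a
    obtain ⟨s, hs, h1⟩ := hSa a
    obtain ⟨x, hx⟩ := hfix s hs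
    have h2 : z⁻¹ * e0 x * z = s := by rw [hx]; group
    refine ⟨x, (hmem x).2 (by rw [h2]; exact hs), fun v => ?_⟩
    rw [h2]
    exact h1 v

/-! ### centralisers -/

include cs hk in
/-- **The centraliser of a subset of the torus** on which no root is trivial and which is fixed by no element of the
Weyl group. -/
theorem mem_TT_of_set (p : ℕ) [Fact p.Prime] [CharP k p] {Z : Set ↥(D.group k)} (hfin : Z.Finite)
    (hZ : ∀ t ∈ Z, t ∈ TT D k) (hroot : ∀ a, IsRoot cs hp.isCartan a → ∃ t ∈ Z, cX hp t a ≠ 1)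
    (hW : ∀ w : W, (∀ t ∈ Z, ∀ x, cX hp t (rep cs hp.isCartan w x) = cX hp t x) → w = 1)
    {c : ↥(D.group k)} (hc : ∀ t ∈ Z, c * t = t * c) : c ∈ TT D k := by
  have hZ' : Z ⊆ TL (Tj hp (k := k)) := fun t ht => (mem_TL' hp hk).2 (hZ t ht)
  obtain ⟨m, hm, w, kk, hkk, hkt, rfl⟩ := exists_form_centralizer (tow hp cs hk p) (coL hp cs hk p)
    (GG_eq_top hp cs hk) hfin hZ' (c := c) hc
  have hw : w = 1 := by
    apply hW
    have h1 := mem_CW_of_comm (tow hp cs hk p) (coL hp cs hk p) hZ' hkk hkt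
    intro t ht x
    have h2 : IsMC fun x => cX hp t (rep cs hp.isCartan w x) :=
      (isMC_cX hp (hZ t ht)).comp (repAut cs hp.isCartan w).toAddMonoidHom
    refine h2.ext (isMC_cX hp (hZ t ht)) (fun i => ?_) x
    show cX hp t (rep cs hp.isCartan w (sr i)) = _
    rw [cX_root hp cs (hZ t ht) ((isRoot_sr cs hp.isCartan i).act w), cX_root hp cs (hZ t ht)
      (isRoot_sr cs hp.isCartan i)]
    exact h1 _ (isRoot_sr cs hp.isCartan i) t ht
  subst hw
  have hm1 : m = 1 := by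
    have h1 : MMZ cs hp.isCartan (XL (Xj hp)) (ch (K := k) hp) Z = ⊥ := by
      rw [eq_bot_iff]
      refine RGD.Sup_le fun a ha => ?_
      exfalso
      obtain ⟨t, ht, h2⟩ := hroot a ha.1
      apply h2
      rw [cX_root hp cs (hZ t ht) ha.1]
      exact ha.2 t ht
    rw [h1] at hm
    exact Subgroup.mem_bot.1 hm
  rw [hm1, one_mul]
  exact (mem_TL' hp hk).1 hkk.mem_of_one

end

end Cfsg.Agent.H251.PQ
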