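import Cfsg.Agent.H251.PQ.Tor
import Cfsg.Agent.H990.PQ.Core
import Cfsg.Agent.H792.PQ.A3c

/-!
# Regular `r`-subgroups of twisted tori (helper251, S4612)

* `exists_reg` : an `r`-subgroup of a twisted torus with abelian centraliser;
* `not_same_of_cent` : an `r`-subgroup with abelian centraliser of order divisible by `l`.
-/

set_option autoImplicit false
set_option linter.unusedSectionVars false

namespace Cfsg.Agent.H251.PQ

open CoxeterSystem Cfsg Cfsg.Lie Cfsg.Lie.ChevalleyDatum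
open Cfsg.Agent.ChevalleyStructure Cfsg.Agent.ChevalleyStructure.Elts Cfsg.Agent.ChevalleyStructure.CoxeterGeom
  Cfsg.Agent.ChevalleyStructure.CoxeterGeomTypes Cfsg.Agent.ChevalleyStructure.NPerm
open Cfsg.Agent.Tits.Roots Cfsg.Agent.Tits.Core Cfsg.Agent.Nodes Cfsg.Agent.Nodes.Reps Cfsg.Agent.Nodes.BNOf
  Cfsg.Agent.Nodes.RGDChev
open Cfsg.Agent.KFacts.RgdField Cfsg.Agent.KFacts.RgdChevCoord Cfsg.Agent.BpExc.TorCent Cfsg.Agent.BpExc.TorChev
open Cfsg.Agent.GpExc.Field Cfsg.Agent.BpExc.Tow Cfsg.Agent.BpExc.TowChev Cfsg.Agent.BpExc.Fr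
  Cfsg.Agent.BpExc.LangFr Cfsg.Agent.LangThm Cfsg.Agent.BpExc Cfsg.Agent.H129.TorusChar Cfsg.Agent.H129.TorusMain
open Cfsg.Agent.H720.TorusReal Cfsg.Agent.Nodes.Unique Cfsg.Agent.H897.T5Cent Cfsg.Agent.H795.SetCent
open Cfsg.Agent.H317.PQ

universe u v

/-- **An `r`-subgroup with abelian centraliser** -/
theorem not_same_of_cent {G : Type u} [Group G] [Finite G] {p l : ℕ} (hp : p.Prime) (hl : l.Prime) (hpl : p ≠ l)
    (E : Subgroup G) (hE : IsPGroup p E) (hC : IsMulCommutative ↥(Subgroup.centralizer (E : Set G)))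
    (hlC : l ∣ Nat.card ↥(Subgroup.centralizer (E : Set G))) : ¬ Same p l G := by
  intro h
  have h1 := H358.A3.PQ.of_same hl h
  have h2 := H358.A3.PQ.centralizer_subgroup hp hl hpl h1 E hE
  have h3 := H990.PQ.PQ.core_abelian hp hl hpl h2 ⊤ ⟨⟨fun a b => Subtype.ext (hC.is_comm.comm a.1 b.1)⟩⟩
    (by rw [Subgroup.index_top]; exact hp.not_dvd_one)
  rw [Subgroup.card_top] at h3
  exact h3 hlC

section

variable {D : ChevalleyDatum} {l : ℕ} {M : CoxeterMatrix (Fin l)} (hp : IsType D l M) {k : Type u} [Field k]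
  [IsAlgClosed k] {W : Type v} [Group W] [Finite W] (cs : CoxeterSystem M W) (hk : LocFin k)
  {G0 : Type*} [Group G0] [Finite G0] {e0 : G0 →* ↥(D.group k)}

include cs hk in
/-- **Regular `r`-subgroups of a twisted torus.** -/
theorem exists_reg (p : ℕ) [Fact p.Prime] [CharP k p] (he0 : Function.Injective e0) {z : ↥(D.group k)}
    {A : Subgroup G0} {ζ : Fin l → k} {d : Fin l → ℕ} {U : Fin l → Fin l → ℤ} (hA : IsMulCommutative ↥A)
    (hAT : ∀ x ∈ A, z⁻¹ * e0 x * z ∈ TT D k) (hd0 : ∀ i, d i ≠ 0) (hζ : ∀ i, IsPrimitiveRoot (ζ i) (d i))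
    (hval : ∀ a : Fin l → ℤ, ∃ x ∈ A, ∀ v, cX hp (z⁻¹ * e0 x * z) v = vl ζ U a v) (r : ℕ)
    (m : Fin l → ℕ) (hmd : ∀ i, m i ∣ d i) (hm : ∀ i, ∃ j, m i = r ^ j)
    (hroot : ∀ a, IsRoot cs hp.isCartan a → ¬ ∀ i, (m i : ℤ) ∣ ∑ j, U i j * a j)
    (hpos : ∀ (i : Fin l) (a : Fin l → ℤ), IsRoot cs hp.isCartan a → (∀ n, (m n : ℤ) ∣ ∑ j, U n j * (a - sr i) j) → 0 ≤ a) :
    ∃ E : Subgroup G0, IsPGroup r E ∧ A ≤ Subgroup.centralizer (E : Set G0) ∧
      IsMulCommutative ↥(Subgroup.centralizer (E : Set G0)) := by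
  classical
  have hcm : ∀ x ∈ A, ∀ y ∈ A, x * y = y * x := fun x hx y hy =>
    congrArg Subtype.val (hA.is_comm.comm (⟨x, hx⟩ : ↥A) ⟨y, hy⟩)
  let E : Subgroup G0 :=
    { carrier := {x | x ∈ A ∧ ∃ j : ℕ, x ^ r ^ j = 1}
      one_mem' := ⟨one_mem _, 0, one_pow _⟩
      mul_mem' := by
        rintro x y ⟨hx, i, hi⟩ ⟨hy, j, hj⟩
        refine ⟨mul_mem hx hy, i + j, ?_⟩
        rw [(show Commute x y from hcm x hx y hy).mul_pow, pow_add, pow_mul, hi, one_pow, one_mul, mul_comm,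
          pow_mul, hj, one_pow]
      inv_mem' := by
        rintro x ⟨hx, i, hi⟩
        exact ⟨inv_mem hx, i, by rw [inv_pow, hi, inv_one]⟩ }
  have hEA : ∀ x ∈ E, x ∈ A := fun x hx => hx.1
  -- the elements
  have hex : ∀ i, ∃ x ∈ E, ∀ v, cX hp (z⁻¹ * e0 x * z) v = 1 ↔ (m i : ℤ) ∣ ∑ j, U i j * v j := by
    intro i
    obtain ⟨c, hc⟩ := hmd i
    have hm0 : m i ≠ 0 := by rintro h; rw [h, zero_mul] at hc; exact hd0 i hc
    have hc0 : c ≠ 0 := by rintro h; rw [h, mul_zero] at hc; exact hd0 i hc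
    obtain ⟨x, hx, hx2⟩ := hval (Pi.single i (c : ℤ))
    have hv : ∀ v, cX hp (z⁻¹ * e0 x * z) v = ζ i ^ ((c : ℤ) * ∑ j, U i j * v j) := by
      intro v
      rw [hx2]
      unfold vl
      rw [Finset.prod_eq_single i]
      · rw [Pi.single_eq_same]
      · intro j _ hj
        rw [Pi.single_eq_of_ne hj, zero_mul, zpow_zero]
      · intro h
        exact absurd (Finset.mem_univ i) h
    refine ⟨x, ⟨hx, ?_⟩, fun v => ?_⟩
    · obtain ⟨j, hj⟩ := hm i
      refine ⟨j, ?_⟩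
      rw [← hj]
      apply he0
      rw [map_one, map_pow]
      have h1 : (z⁻¹ * e0 x * z) ^ m i = 1 := by
        refine cX_inj hp (pow_mem (hAT x hx) _) (one_mem _) fun i' => ?_
        rw [cX_pow hp (hAT x hx), cX_one, hv, ← zpow_natCast, ← zpow_mul]
        have e1 : (c : ℤ) * (∑ j, U i j * (sr i' : Fin l → ℤ) j) * (m i : ℤ) =
            (d i : ℤ) * ∑ j, U i j * (sr i' : Fin l → ℤ) j := by
          rw [hc]; push_cast; ring
        rw [e1, zpow_mul, zpow_natCast, (hζ i).pow_eq_one, one_zpow]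
      have h2 : e0 x = z * (z⁻¹ * e0 x * z) * z⁻¹ := by group
      rw [h2, conj_pow, h1, mul_one, mul_inv_cancel]
    · rw [hv, (hζ i).zpow_eq_one_iff_dvd, hc]
      push_cast
      rw [mul_comm (m i : ℤ) (c : ℤ)]
      exact mul_dvd_mul_iff_left (Nat.cast_ne_zero.2 hc0)
  choose x hxE hx using hex
  -- the centraliser
  have key : ∀ c ∈ Subgroup.centralizer (E : Set G0), z⁻¹ * e0 c * z ∈ TT D k := by
    intro c hc
    refine mem_TT_of_set hp cs hk p (Z := (fun y : G0 => z⁻¹ * e0 y * z) '' (E : Set G0)) (Set.toFinite _) ?_ ?_ ?_ ?_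
    · rintro _ ⟨y, hy, rfl⟩
      exact hAT y (hEA y hy)
    · intro a ha
      have h1 := hroot a ha
      push Not at h1
      obtain ⟨i, hi⟩ := h1
      exact ⟨_, ⟨x i, hxE i, rfl⟩, fun h => hi ((hx i a).1 h)⟩
    · intro w hw
      have h1 : ∀ v n, (m n : ℤ) ∣ ∑ j, U n j * (rep cs hp.isCartan w v - v) j := by
        intro v n
        rw [← hx n]
        have hT := hAT _ (hEA _ (hxE n))
        have h2 := hw _ ⟨x n, hxE n, rfl⟩ v
        have h3 := (isMC_cX hp hT).add (rep cs hp.isCartan w v - v) v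
        rw [sub_add_cancel] at h3
        have h4 : cX hp (z⁻¹ * e0 (x n) * z) v ≠ 0 := (isMC_cX hp hT).ne_zero v
        simp only at h2
        rw [h2] at h3
        exact (mul_right_cancel₀ h4 (by rw [one_mul]; exact h3)).symm
      refine ChevalleyStructure.CoxeterGeom.eq_one_of_nonneg cs hp.isCartan w fun i => ?_
      exact hpos i _ ((isRoot_sr cs hp.isCartan i).act w) (h1 (sr i))
    · rintro _ ⟨y, hy, rfl⟩
      have h1 : y * c = c * y := Subgroup.mem_centralizer_iff.1 hc y hy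
      show z⁻¹ * e0 c * z * (z⁻¹ * e0 y * z) = z⁻¹ * e0 y * z * (z⁻¹ * e0 c * z)
      calc z⁻¹ * e0 c * z * (z⁻¹ * e0 y * z) = z⁻¹ * (e0 c * e0 y) * z := by group
        _ = z⁻¹ * (e0 y * e0 c) * z := by rw [← map_mul, ← h1, map_mul]
        _ = _ := by group
  refine ⟨E, ?_, ?_, ⟨⟨?_⟩⟩⟩
  · rintro ⟨y, hy⟩
    obtain ⟨j, hj⟩ := hy.2
    exact ⟨j, Subtype.ext hj⟩
  · intro y hy
    rw [Subgroup.mem_centralizer_iff]
    exact fun t ht => hcm t (hEA t ht) y hy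
  · rintro ⟨a, ha⟩ ⟨b, hb⟩
    apply Subtype.ext
    apply he0
    show e0 (a * b) = e0 (b * a)
    have h1 := TT_comm hp (key a ha) (key b hb)
    have h2 : z⁻¹ * (e0 a * e0 b) * z = z⁻¹ * (e0 b * e0 a) * z := by
      calc z⁻¹ * (e0 a * e0 b) * z = (z⁻¹ * e0 a * z) * (z⁻¹ * e0 b * z) := by group
        _ = (z⁻¹ * e0 b * z) * (z⁻¹ * e0 a * z) := h1
        _ = _ := by group
    rw [map_mul, map_mul]
    exact mul_left_cancel (mul_right_cancel h2)

end

end Cfsg.Agent.H251.PQ
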