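import Cfsg.Agent.H251.PQ.Tor
import Cfsg.Agent.H129.TwD4Cyc
import Cfsg.Agent.H129.DataG2
import Cfsg.Agent.S1092

/-!
# Twisted tori of `G₂(q)` and `³D₄(q)` (helper251, S4612)
-/

set_option autoImplicit false
set_option linter.unusedSectionVars false

namespace Cfsg.Agent.H251.PQ

open CoxeterSystem Cfsg Cfsg.Lie Cfsg.Lie.ChevalleyDatum
open Cfsg.Agent.ChevalleyStructure Cfsg.Agent.ChevalleyStructure.Elts Cfsg.Agent.ChevalleyStructure.CoxeterGeom
  Cfsg.Agent.ChevalleyStructure.CoxeterGeomTypes Cfsg.Agent.ChevalleyStructure.NPerm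
open Cfsg.Agent.Tits.Roots Cfsg.Agent.Tits.Core Cfsg.Agent.Nodes Cfsg.Agent.Nodes.Reps Cfsg.Agent.Nodes.BNOf
  Cfsg.Agent.Nodes.RGDChev
open Cfsg.Agent.KFacts.RgdField Cfsg.Agent.KFacts.RgdChevCoord Cfsg.Agent.BpExc.TorCent Cfsg.Agent.BpExc.TorChev
open Cfsg.Agent.GpExc.Field Cfsg.Agent.BpExc.Tow Cfsg.Agent.BpExc.TowChev Cfsg.Agent.BpExc.Fr
  Cfsg.Agent.BpExc.LangFr Cfsg.Agent.LangThm Cfsg.Agent.BpExc Cfsg.Agent.H129.TorusChar Cfsg.Agent.H129.TorusMain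
open Cfsg.Agent.BpExc.FamUntw Cfsg.Agent.BpExc.FamInst Cfsg.Agent.BpExc.FamField
open Cfsg.Agent.H129

universe u

theorem hpG2 : IsType chevG2 2 CoxeterMatrix.G₂ := by simp [IsType, typeList]

instance finite_WG2 : Finite CoxeterMatrix.G₂.Group :=
  Nat.finite_of_card_ne_zero (by
    rw [Cfsg.Agent.S1092.result (⟨2, CoxeterMatrix.G₂⟩, 12) (by simp)]; norm_num)

/-- the embedding of `G₂(q)` -/
noncomputable abbrev eG2 (F : Type u) [Field F] :
    ↥(chevG2.group F) →* ↥(chevG2.group (AlgebraicClosure F)) :=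
  emb hpG2.inList (algebraMap F (AlgebraicClosure F))

/-- **Twisted tori of `G₂(q)`** -/
theorem exists_tor_G2 {F : Type u} [Field F] [Fintype F] {q : ℕ} (hq : Fintype.card F = q)
    {L : List (Fin 2 × WData.Mat 2)} (hL : WData.ChainOK DataG2.Am L) (d : Fin 2 → ℕ)
    (hdq : ∀ i, (d i).Coprime q) (U f : Fin 2 → Fin 2 → ℤ)
    (hUf : ∀ i j, ∑ m, U i m * f j m = if i = j then 1 else 0)
    (hU : ∀ i m, (d i : ℤ) ∣ ∑ j, U i j * (WData.hd L m j - (q : ℤ) * (if m = j then 1 else 0))) :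
    ∃ (z : ↥(chevG2.group (AlgebraicClosure F))) (A : Subgroup ↥(chevG2.group F)) (ζ : Fin 2 → AlgebraicClosure F),
      Nat.card A = ∏ i, d i ∧ IsMulCommutative ↥A ∧
      (∀ x ∈ A, z⁻¹ * eG2 F x * z ∈ TT chevG2 (AlgebraicClosure F)) ∧ (∀ i, IsPrimitiveRoot (ζ i) (d i)) ∧
      (∀ a : Fin 2 → ℤ, ∃ x ∈ A, ∀ v, cX hpG2 (z⁻¹ * eG2 F x * z) v = vl ζ U a v) := by
  obtain ⟨p, e, hpF, hpc, hpk, he, hqe, hk⟩ := TorusUntw.exists_closure hq
  have hp1 : 1 < p := hpF.out.one_lt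
  have hq1 : 1 < q := by rw [hqe]; exact Nat.one_lt_pow he.ne' hp1
  have hcard : Nat.card F = p ^ e := by rw [Nat.card_eq_fintype_card, hq, hqe]
  have hd0 : ∀ i, d i ≠ 0 := by
    intro i h0
    have h1 := hdq i
    rw [h0, Nat.coprime_zero_left] at h1
    omega
  have hdp : ∀ i, (d i).Coprime p := fun i =>
    Nat.Coprime.coprime_dvd_right (by rw [hqe]; exact dvd_pow_self p he.ne') (hdq i)
  refine exists_tor (k := AlgebraicClosure F) hpG2 CoxeterMatrix.G₂.toCoxeterSystem hk (p := p) (e := e) he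
    (σ := phi chevG2 (AlgebraicClosure F) p e) (phi_isFrob p e)
    (phi_fr hpG2 CoxeterMatrix.G₂.toCoxeterSystem p hk e) invC_G2 one_ne_zero
    (CoxeterMatrix.G₂.toCoxeterSystem.wordProd (L.map Prod.fst)) (e0 := eG2 F)
    (emb_injective hpG2.inList _) (fun y hy => ?_) d hd0 hdp U f hUf (fun i m => ?_)
  · exact Cfsg.Agent.H378.TorFin.fix_mem hpG2 (algebraMap F (AlgebraicClosure F)) p hcard invC_G2 hy
  · have h1 := WData.lin_refl hpG2 CoxeterMatrix.G₂.toCoxeterSystem DataG2.hA hL m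
    have h2 := hU i m
    convert h2 using 2
    rename_i j _
    congr 1
    rw [h1, ← hqe, Pi.sub_apply, Pi.smul_apply, smul_eq_mul]
    congr 2
    by_cases h : m = j
    · subst h; rw [if_pos rfl, sr_self]
    · rw [if_neg h, sr_ne (Ne.symm h)]

section D4

variable {K : Type u} [Field K] [Fintype K] {q : ℕ} (hq : IsPrimePow q) (hK : Fintype.card K = q ^ 3)

/-- the embedding of `³D₄(q)` -/
noncomputable abbrev eD4 (hq : IsPrimePow q) (hK : Fintype.card K = q ^ 3) :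
    ↥(twistedD4 K q) →* ↥(chevD4.group (AlgebraicClosure K)) :=
  TriD4.embT (algebraMap K (AlgebraicClosure K)) hq hK

include hq hK in
/-- the closure -/
theorem closure_D4 : ∃ (p e : ℕ) (_ : Fact p.Prime) (_ : CharP K p) (_ : CharP (AlgebraicClosure K) p), 0 < e ∧
    q = p ^ e ∧ LocFin (AlgebraicClosure K) := by
  obtain ⟨p, e', hpF, hpc, hpk, -, hpe, hk⟩ := TorusUntw.exists_closure hK
  obtain ⟨p', e, hp', he, hqe'⟩ := id hq
  have hpp : p' = p := by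
    have h1 : p' ∣ p ^ e' := by
      rw [← hpe, ← hqe']
      exact dvd_pow (dvd_pow_self p' he.ne') (by norm_num)
    exact (Nat.prime_dvd_prime_iff_eq hp'.nat_prime hpF.out).1 (hp'.nat_prime.dvd_of_dvd_pow h1)
  subst hpp
  exact ⟨p', e, hpF, hpc, hpk, he, hqe'.symm, hk⟩

/-- **Twisted tori of `³D₄(q)`** -/
theorem exists_tor_D4 {L : List (Fin 4 × WData.Mat 4)} (hL : WData.ChainOK DataD4C.Am L) (d : Fin 4 → ℕ)
    (hdq : ∀ i, (d i).Coprime q) (U f : Fin 4 → Fin 4 → ℤ)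
    (hUf : ∀ i j, ∑ m, U i m * f j m = if i = j then 1 else 0)
    (hU : ∀ i m, (d i : ℤ) ∣ ∑ j, U i j *
      (WData.hd L ((![2, 1, 3, 0] : Fin 4 → Fin 4) m) j - (q : ℤ) * (if m = j then 1 else 0))) :
    ∃ (z : ↥(chevD4.group (AlgebraicClosure K))) (A : Subgroup ↥(twistedD4 K q)) (ζ : Fin 4 → AlgebraicClosure K),
      Nat.card A = ∏ i, d i ∧ IsMulCommutative ↥A ∧
      (∀ x ∈ A, z⁻¹ * eD4 hq hK x * z ∈ TT chevD4 (AlgebraicClosure K)) ∧ (∀ i, IsPrimitiveRoot (ζ i) (d i)) ∧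
      (∀ a : Fin 4 → ℤ, ∃ x ∈ A, ∀ v, cX RGDTwD4.hp (z⁻¹ * eD4 hq hK x * z) v = vl ζ U a v) := by
  obtain ⟨p, e, hpF, hpc, hpk, he, hqe, hk⟩ := closure_D4 hq hK
  have hp1 : 1 < p := hpF.out.one_lt
  have hq1 : 1 < q := hq.one_lt
  have hd0 : ∀ i, d i ≠ 0 := by
    intro i h0
    have h1 := hdq i
    rw [h0, Nat.coprime_zero_left] at h1
    omega
  have hdp : ∀ i, (d i).Coprime p := fun i =>
    Nat.Coprime.coprime_dvd_right (by rw [hqe]; exact dvd_pow_self p he.ne') (hdq i)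
  refine exists_tor (k := AlgebraicClosure K) RGDTwD4.hp coxeterD4.toCoxeterSystem hk (p := p) (e := e) he
    (σ := TriD4.tau (AlgebraicClosure K) p e) TriD4.isFrob_tau (TriD4.fr_tau coxeterD4.toCoxeterSystem) invC_D4
    (by norm_num) (coxeterD4.toCoxeterSystem.wordProd (L.map Prod.fst)) (e0 := eD4 hq hK)
    (TriD4.embT_injective _ hq hK) (fun y hy => ?_) d hd0 hdp U f hUf (fun i m => ?_)
  · exact TriD4.tau_range _ hqe hq hK hy
  · have h1 := TwD4Cyc.lin_tri coxeterD4.toCoxeterSystem DataD4C.hA hL (fun _ => rfl) m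
    have h2 := hU i m
    convert h2 using 2
    rename_i j _
    congr 1
    rw [h1, ← hqe, Pi.sub_apply, Pi.smul_apply, smul_eq_mul]
    congr 2
    by_cases h : m = j
    · subst h; rw [if_pos rfl, sr_self]
    · rw [if_neg h, sr_ne (Ne.symm h)]

end D4

end Cfsg.Agent.H251.PQ
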